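import Mathlib

/-!
# Large `p`-subgroups with a unique fixed point
-/

set_option autoImplicit false
set_option linter.unusedSectionVars false

namespace Cfsg.Lib.TwoMax

open Subgroup MulAction
open scoped Pointwise

variable {G : Type*} [Group G] [Finite G]

theorem dvd_ncard {P Ω : Type*} [Group P] [MulAction P Ω] [Finite Ω] (d : ℕ) (n : ℕ) :
    ∀ S : Set Ω, S.ncard = n → (∀ β ∈ S, ∀ g : P, g • β ∈ S) →
      (∀ β ∈ S, d ∣ (stabilizer P β).index) → d ∣ n := by
  induction n using Nat.strong_induction_on with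
  | _ n ih =>
    intro S hn h1 h2
    obtain rfl | ⟨β, hβ⟩ := S.eq_empty_or_nonempty
    · rw [← hn, Set.ncard_empty]; exact dvd_zero d
    have hO : orbit P β ⊆ S := by rintro _ ⟨g, rfl⟩; exact h1 β hβ g
    have e := Set.ncard_sdiff_add_ncard_of_subset hO (Set.toFinite S)
    have p : 0 < (orbit P β).ncard := (Set.ncard_pos (Set.toFinite _)).2 ⟨β, mem_orbit_self β⟩
    have h3 := ih _ (by omega) (S \ orbit P β) rfl (fun γ hγ g => ⟨h1 γ hγ.1 g, fun H => hγ.2 (by
      obtain ⟨k, hk⟩ := H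
      exact ⟨g⁻¹ * k, by simp only at hk ⊢; rw [mul_smul, hk, inv_smul_smul]⟩)⟩)
      fun γ hγ => h2 γ hγ.1
    rw [← hn, ← e]
    exact dvd_add h3 (index_stabilizer P β ▸ h2 β hβ)

theorem lt_norm {p : ℕ} [Fact p.Prime] {U P : Subgroup G} (hP : IsPGroup p P) (h : U < P) :
    U < P ⊓ normalizer (U : Set G) := by
  have := hP.isNilpotent
  have h1 : U.subgroupOf P < ⊤ := lt_top_iff_ne_top.2 fun e => h.not_ge (subgroupOf_eq_top.1 e)
  obtain ⟨x, hx, hx'⟩ := SetLike.exists_of_lt (Group.normalizerCondition_of_isNilpotent _ h1)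
  refine lt_of_le_of_ne (le_inf h.le le_normalizer) fun e => hx' ?_
  rw [← subgroupOf_normalizer_eq h.le] at hx
  have : (x : G) ∈ P ⊓ normalizer (U : Set G) := ⟨x.2, hx⟩
  rw [← e] at this
  exact this

variable {Ω : Type*} [MulAction G Ω] [IsPretransitive G Ω] [Finite Ω] {p m : ℕ} [Fact p.Prime]

theorem exists_syl (hΩ : ¬ p ∣ Nat.card Ω) {U : Subgroup G} (hU : IsPGroup p U) {α : Ω}
    (hα : U ≤ stabilizer G α) : ∃ P : Sylow p G, U ≤ P ∧ (P : Subgroup G) ≤ stabilizer G α := by
  obtain ⟨Q, hQ⟩ := (hU.comap_subtype (K := stabilizer G α)).exists_le_sylow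
  have h1 : ¬ p ∣ ((Q : Subgroup (stabilizer G α)).map (stabilizer G α).subtype).index := by
    rw [index_map_subtype, index_stabilizer_of_transitive]
    exact (Fact.out : p.Prime).not_dvd_mul Q.not_dvd_index hΩ
  refine ⟨(Q.isPGroup'.map _).toSylow h1, ?_, map_subtype_le _⟩
  intro x hx
  exact ⟨⟨x, hα hx⟩, hQ hx, rfl⟩

/-- A large `p`-subgroup fixes at most one point. -/
theorem uniq (hΩ : ¬ p ∣ Nat.card Ω)
    (H : ∀ U : Subgroup G, IsPGroup p U → ¬ Nat.card U ∣ m →
      ∃ γ : Ω, normalizer (U : Set G) ≤ stabilizer G γ) (n : ℕ) :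
    ∀ U : Subgroup G, U.index = n → IsPGroup p U → ¬ Nat.card U ∣ m → ∀ α β : Ω,
      U ≤ stabilizer G α → U ≤ stabilizer G β → α = β := by
  induction n using Nat.strong_induction_on with
  | _ n ih =>
    intro U hn hU hm
    obtain ⟨γ, hγ⟩ := H U hU hm
    have key : ∀ α : Ω, U ≤ stabilizer G α → α = γ := by
      intro α hα
      obtain ⟨P, h1, h2⟩ := exists_syl hΩ hU hα
      obtain e | e := h1.eq_or_lt
      · obtain ⟨g, rfl⟩ := exists_smul_eq G γ α
        have h3 : (P : Subgroup G) ≤ stabilizer G γ := e ▸ le_normalizer.trans hγ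
        have h4 : ((g⁻¹ • P : Sylow p G) : Subgroup G) ≤ stabilizer G γ := by
          intro x hx
          have h5 : g * x * g⁻¹ ∈ (P : Subgroup G) := by
            have := Subgroup.mem_pointwise_smul_iff_inv_smul_mem.1 hx
            simpa using this
          have h6 := mem_stabilizer_iff.1 (h2 h5)
          rw [mul_smul, mul_smul, inv_smul_smul] at h6
          exact smul_left_cancel g h6
        obtain ⟨l, hl⟩ := exists_smul_eq (stabilizer G γ) (P.subtype h3) ((g⁻¹ • P).subtype h4)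
        have h7 : (l : G) • P = g⁻¹ • P := by
          have := Sylow.smul_subtype h3 l
          rw [hl] at this
          exact (Sylow.subtype_injective this).symm
        have h8 : g * l ∈ normalizer (U : Set G) := by
          rw [e]
          exact Sylow.smul_eq_iff_mem_normalizer.1 (by rw [mul_smul, h7, smul_inv_smul])
        have h9 := mem_stabilizer_iff.1 (hγ h8)
        rwa [mul_smul, mem_stabilizer_iff.1 l.2] at h9
      · have h3 := lt_norm P.isPGroup' e
        refine ih _ (hn ▸ index_strictAnti h3) _ rfl (P.isPGroup'.to_le inf_le_left)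
          (fun h => hm ((card_dvd_of_le h3.le).trans h)) α γ (inf_le_left.trans h2)
          (inf_le_right.trans hγ)
    intro α β hα hβ
    rw [key α hα, key β hβ]

/-- The degree is one modulo the `p`-part of `|G| / m`. -/
theorem dvd_sub_one (hΩ : ¬ p ∣ Nat.card Ω)
    (H : ∀ U : Subgroup G, IsPGroup p U → ¬ Nat.card U ∣ m →
      ∃ γ : Ω, normalizer (U : Set G) ≤ stabilizer G γ) {k : ℕ}
    (hk : p ^ k * m ∣ Nat.card G) : p ^ k ∣ Nat.card Ω - 1 := by
  have hne : Nonempty Ω := by
    by_contra h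
    rw [not_nonempty_iff] at h
    exact hΩ (by rw [Nat.card_of_isEmpty]; exact dvd_zero p)
  obtain ⟨α⟩ := hne
  obtain ⟨P, -, h2⟩ := exists_syl hΩ (IsPGroup.of_bot (p := p)) (bot_le (a := stabilizer G α))
  refine dvd_ncard (P := (P : Subgroup G)) (p ^ k) _ ({α}ᶜ : Set Ω) ?_ ?_ ?_
  · rw [Set.ncard_compl, Set.ncard_singleton]
  · intro β hβ g e
    refine hβ ?_
    have : g • α = α := mem_stabilizer_iff.1 (h2 g.2)
    exact smul_left_cancel g (e.trans this.symm)
  · intro β hβ
    have h3 : Nat.card ((P : Subgroup G) ⊓ stabilizer G β : Subgroup G) ∣ m := by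
      by_contra h
      exact hβ (uniq hΩ H _ _ rfl (P.isPGroup'.to_le inf_le_left) h β α inf_le_right
        (inf_le_left.trans h2))
    have h4 : Nat.card (stabilizer (P : Subgroup G) β) =
        Nat.card ((P : Subgroup G) ⊓ stabilizer G β : Subgroup G) := by
      rw [← card_map_of_injective (P : Subgroup G).subtype_injective]
      congr 2
      ext x
      exact ⟨fun ⟨y, hy, e⟩ => e ▸ ⟨y.2, hy⟩, fun h => ⟨⟨x, h.1⟩, h.2, rfl⟩⟩
    obtain ⟨j, hj⟩ := (P.isPGroup'.to_subgroup (stabilizer (P : Subgroup G) β)).exists_card_eq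
    have h5 : p ^ k * p ^ j ∣ Nat.card G :=
      (Nat.mul_dvd_mul_left _ (by rw [← hj, h4]; exact h3)).trans hk
    rw [← pow_add] at h5
    have h6 := P.pow_dvd_card_of_pow_dvd_card h5
    rw [← (stabilizer (P : Subgroup G) β).index_mul_card, hj, pow_add] at h6
    exact Nat.dvd_of_mul_dvd_mul_right (pow_pos (Fact.out : p.Prime).pos j) h6

end Cfsg.Lib.TwoMax
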